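import Cfsg.Agent.TwoF.SpB.C1Wt
import Cfsg.Agent.TwoF.SpB.C1Small

/-!
# TwoF SP-B: `Co1` in characteristic two (helper24)
-/

set_option autoImplicit false

namespace Cfsg.Agent.TwoF.SpB

open Module Gen Subgroup

section

variable {k : Type} [Field k] {G : Type} [Group G] {V : Type} [AddCommGroup V] [Module k V]
  {ρ : Representation k G V} {f : ℕ → G} {l m : ℕ} {μ : ℕ → ℕ} {v1 v2 v3 a b c n1 n2 n3 : ℕ}

theorem Mu.eq' (H : Mu ρ f l m μ) (h1 : ∀ u, v1.testBit u = true → μ u = a) (h2 : ∀ u, v2.testBit u = true → μ u = b)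
    (h3 : ∀ u, v3.testBit u = true → μ u = c) {w : List ℕ} (hw : ∀ i ∈ w, i < m) {p : ℕ → Bool}
    (hp : p = fun u => !Nat.beq (ip l u w % l) 0)
    (h : [cl v1 v2 v3 p (l ^ m) 0, cl v1 v2 v3 p (l ^ m) 1, cl v1 v2 v3 p (l ^ m) 2, cl v1 v2 v3 p (l ^ m) 3] =
      [0, n1, n2, n3]) : cod ρ (zpowers (w.map f).prod) = n1 * a + n2 * b + n3 * c := by
  simp only [List.cons.injEq] at h
  rw [H.eq w hw, ← hp, (sm_lab h1 h2 h3 p _).2 h.1, h.2.1, h.2.2.1, h.2.2.2.1]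

theorem Mu.lo' (H : Mu ρ f l m μ) (h1 : ∀ u, v1.testBit u = true → μ u = a) (h2 : ∀ u, v2.testBit u = true → μ u = b)
    (h3 : ∀ u, v3.testBit u = true → μ u = c) {t : G} {ws : List (List ℕ)} (R : Rl f m t ws)
    (hi : allTo (fun u => Nat.beq (tws l m ws (tws l m ws u)) u) (l ^ m) = true) {p : ℕ → Bool}
    (hp : p = fun u => Nat.blt u (tws l m ws u))
    (h : [cl v1 v2 v3 p (l ^ m) 0, cl v1 v2 v3 p (l ^ m) 1, cl v1 v2 v3 p (l ^ m) 2, cl v1 v2 v3 p (l ^ m) 3] =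
      [0, n1, n2, n3]) : n1 * a + n2 * b + n3 * c ≤ cod ρ (zpowers t) := by
  simp only [List.cons.injEq] at h
  have h4 := (sm_lab h1 h2 h3 p (l ^ m)).1
  rw [h.2.1, h.2.2.1, h.2.2.2.1] at h4
  refine h4.trans (H.lo t ws R p fun u hu h5 => ?_)
  rw [hp] at h5 ⊢
  have h6 := Nat.eq_of_beq_eq_true ((allTo_iff _ _).1 hi u hu)
  have h7 := Nat.blt_eq.mp h5
  rw [← Bool.not_eq_true]
  intro h8
  have h9 := Nat.blt_eq.mp h8
  omega

theorem cod_le_of_rel [FiniteDimensional k V] {t z : G} (hz : z ^ 3 = 1) (h : t * z = z * z * t) :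
    cod ρ (zpowers z) ≤ 2 * cod ρ (zpowers t) :=
  cod_le_of_inverts (Odd.of_dvd_nat (by decide) (orderOf_dvd_of_pow_eq_one hz)) (by
    rw [h, mul_inv_cancel_right, eq_inv_iff_mul_eq_one, ← hz, pow_three'])

end

namespace C1W

open Wd Cfsg.Agent.H861.Gen Cfsg.Agent.H950.FF.CoTr
open Cfsg.Agent.CoOneType.ClosingFacts (mk mk_eq mk_eq_one exists_mk)
open Cfsg.Agent.Co2Type.Mono (tr8 tr8_conj)
open Cfsg.Agent.StdG24.ExInst (z)
open Cfsg.Agent.SporadicA.Co0Mono (signCo0)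
open Cfsg.Agent.SporadicA.Co1Simple (allOne)

/-- the projection -/
noncomputable def π : Co0 →* Spor.Co1 := QuotientGroup.mk' (center Co0)

theorem V_rev (w : List ℕ) : CoEv.V e w.reverse = π (W e w) := congrArg π (G_rev w)

theorem facts : e 31 * e 31 = 1 ∧ e 10 * e 10 = 1 ∧ e 10 * e 1 = e 1 * e 1 * e 10 ∧
    W e [59, 64] = (W e [14, 9])⁻¹ := by
  have h := kA
  simp only [Bool.and_eq_true, pow_iff hM] at h
  obtain ⟨⟨⟨h1, h2⟩, h3⟩, h4⟩ := h
  rw [W_one, pow_two] at h1 h2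
  have h5 := eq_of_eqP hM h3
  rw [show [10, 1] = [10] ++ [1] from rfl, show [1, 1, 10] = [1] ++ [1] ++ [10] from rfl] at h5
  simp only [W_append, W_one] at h5
  rw [pow_one, show [14, 9, 59, 64] = [14, 9] ++ [59, 64] from rfl, W_append] at h4
  exact ⟨h1, h2, h5, eq_inv_of_mul_eq_one_right h4⟩

theorem factsJ : W e wJ * W e wJ = signCo0 allOne ∧ W e wJ * e 1 = e 1 * e 1 * W e wJ := by
  have h := kJ
  rw [Bool.and_eq_true, Bool.and_eq_true, Bool.not_eq_true', ← Bool.not_eq_true, pow_iff hM, pow_two] at h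
  have h1 := CoEv.pow_eq_one_of_relP hM h.1.1
  have h2 := eq_of_eqP hM h.2
  rw [V_rev, pow_two] at h1
  rw [show [1, 1] = [1] ++ [1] from rfl, W_append, W_append, W_append, W_one] at h2
  exact ⟨(sq_cases h1).resolve_left h.1.2, h2⟩

theorem conj31 : IsConj z (π (e 31)) := conj_z_of_tr facts.1 (by rw [tr8_eq (hM 31), kT.1]; norm_num)

theorem tr_of_conj {t : Co0} (h : IsConj z (π t)) : tr8 t ^ 2 = 4096 := by
  obtain ⟨g, hg⟩ := isConj_iff.1 (conj31.symm.trans h)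
  obtain ⟨g, rfl⟩ := exists_mk g
  have h1 : mk t = mk (g * e 31 * g⁻¹) := hg.symm
  rcases (mk_eq _ _).1 h1 with h2 | h2
  · rw [h2, tr8_conj, tr8_eq (hM 31), kT.1]; norm_num
  · rw [h2, tr8_neg_mul, tr8_conj, tr8_eq (hM 31), kT.1]; norm_num

theorem rank_pure {A : Subgroup Spor.Co1} (h : ∀ a ∈ A, a ≠ 1 → IsConj z a) {r : ℕ} (hr : Nat.card A = 2 ^ r) :
    r ≤ 9 := by
  have := C1.fin
  have : Finite Co0 := CoOneType.FrameFix.finite_co0
  have h1 : signCo0 allOne ∈ A.comap π := by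
    have : π (signCo0 allOne) = 1 := (mk_eq_one _).2 (Or.inr rfl)
    rw [mem_comap, this]
    exact A.one_mem
  have h2 := dvd_of_sq' (A.comap π).subtype (z := ⟨_, h1⟩)
    (fun e => CoOneType.CoOneE.allOne_ne (congrArg Subtype.val e)) tr8_allOne fun a h3 h4 =>
      tr_of_conj (h _ a.2 fun e => ((mk_eq_one _).1 e).elim (fun e => h3 (Subtype.ext e)) fun e => h4 (Subtype.ext e))
  have h5 : Nat.card (A.comap π) = Nat.card A * 2 := by
    have h6 := (A.comap π).card_mul_index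
    have h7 := A.card_mul_index
    rw [index_comap_of_surjective A (f := π) (QuotientGroup.mk'_surjective _), S0397.result] at h6
    rw [S0399.result.2] at h7
    refine Nat.eq_of_mul_eq_mul_right (Nat.pos_of_ne_zero (index_ne_zero_of_finite (H := A))) ?_
    rw [h6, mul_assoc, mul_comm 2, ← mul_assoc, h7]
    norm_num
  rw [h5, hr, ← pow_succ] at h2
  have := le_of_pow_dvd (n := 10) h2 (by decide)
  omega

theorem inverts {d : Spor.Co1} (h : d * d = 1) (h1 : d ≠ 1) (h2 : ¬ IsConj z d) :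
    ∃ t : Co0, IsConj (π t) d ∧ t * e 1 = e 1 * e 1 * t := by
  obtain ⟨t, rfl⟩ := exists_mk d
  rcases sq_cases h with h3 | h3
  · exact ⟨e 10, (isConj_e2 facts.2.1 (by rw [tr8_eq (hM 10), kT.2])).symm.trans
      (isConj_e2 h3 ((cls_one h3 h1).resolve_left fun e => h2 e.1).1), facts.2.2.1⟩
  · exact ⟨W e wJ, (isConj_e1 factsJ.1).symm.trans (isConj_e1 h3), factsJ.2⟩

theorem gen (B : H940.Eng.Base) : π (W e [1, 2]) ≠ 1 ∧
    Subgroup.closure {π (W e [1, 2]), π (W e [14, 9]) * π (W e [1, 2]) * (π (W e [14, 9]))⁻¹} = ⊤ := by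
  obtain ⟨h1, -, h2, -⟩ := CoOne.gen_of_chk B hM kG
  rw [V_rev] at h1
  rw [V_rev, V_rev, show [14, 9, 1, 2, 59, 64] = [14, 9] ++ [1, 2] ++ [59, 64] from rfl, W_append, W_append,
    facts.2.2.2, map_mul, map_mul, map_inv] at h2
  exact ⟨h1, h2⟩

theorem core (B : H940.Eng.Base) : Core 2 Spor.Co1 := fun V _ _ _ ρ hf hi A hA => by
  have := C1.fin
  by_cases h : Cub ρ A
  · exact ⟨A, hA, h⟩
  obtain ⟨r, -, h1, h2⟩ := nc_data hA h
  have hr : r ≤ 11 := (Nat.pow_le_pow_iff_right (by norm_num)).1 (h1 ▸ C1.main.1 A hA.1)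
  obtain ⟨c1, c2⟩ := com_of_comB hM kF
  obtain ⟨μ, H⟩ := exists_mu ρ (f := fun j => π (W e (F j))) (l := 3) (m := 6) Nat.prime_three (by decide)
    (fun i hi j hj => by rw [← map_mul, c1 i hi j hj, map_mul]) fun i hi => by rw [← map_pow, c2 i hi, map_one]
  have hW : ∀ p ∈ Ws, ∃ h, Rl (fun j => π (W e (F j))) 6 h p.1 :=
    List.forall_mem_cons.2 ⟨⟨_, rl_map π (rl_of_rlB hM k8)⟩,
      List.forall_mem_singleton.2 ⟨_, rl_map π (rl_of_rlB hM k11)⟩⟩
  have o1 := H.orb (by norm_num) hW kO kV1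
  have o2 := H.orb (by norm_num) hW kO kV2
  have o3 := H.orb (by norm_num) hW kO kV3
  have hz : cod ρ (zpowers (π (W e [1]) * 1)) = _ := H.eq' o1 o2 o3 (w := [0]) (by decide) rfl kz
  have hx : cod ρ (zpowers (π (W e [1]) * (π (W e [2]) * 1))) = _ := H.eq' o1 o2 o3 (w := [0, 1]) (by decide) rfl kx
  have hD := H.lo' o1 o2 o3 (rl_map π (rl_of_rlB hM k31)) kD' rfl kD
  rw [mul_one, W_one] at hz
  rw [mul_one, ← map_mul, ← W_append] at hx
  rw [W_one] at hD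
  have key : μ 40 ≤ 1 ∧ μ 1 = 0 ∧ μ 5 = 0 := by
    by_cases hp : ∀ a ∈ A, a ≠ 1 → IsConj z a
    · obtain ⟨⟨d, hd⟩, h3⟩ := ne_bot_iff_exists_ne_one.1 hA.2.1
      have h4 := rank_pure hp h1
      have h5 := h2 d hd
      rw [← cod_isConj (conj31.symm.trans (hp d hd fun e => h3 (Subtype.ext e)))] at h5
      omega
    · push Not at hp
      obtain ⟨d, hd, h3, h4⟩ := hp
      obtain ⟨t, h5, h6⟩ := inverts (by rw [← pow_two]; exact hA.1.2 d hd) h3 h4
      have h7 := cod_le_of_rel (ρ := ρ) (t := π t) (z := π (e 1))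
        (by rw [← map_pow, ← W_one (e := e) 1, show W e [1] ^ 3 = 1 from c2 0 (by norm_num), map_one])
        (by rw [← map_mul, h6, map_mul, map_mul])
      have h8 := h2 d hd
      rw [← cod_isConj h5] at h8
      omega
  have h9 := finrank_le_of_gen hf hi (gen B).1 (gen B).2
  have h10 : cod ρ (zpowers (π (W e [1, 2]))) = _ := hx
  exact C1.main.2 V ρ (h9.trans (by omega)) A hA

end C1W

end Cfsg.Agent.TwoF.SpB
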