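import Cfsg.Agent.TwoF.SpB.Wd

/-!
# TwoF SP-B: the weights of `3 ^ 6` in `Co1`, kernel checks (helper24)
-/

set_option autoImplicit false
set_option Elab.async false
set_option maxRecDepth 100000

namespace Cfsg.Agent.TwoF.SpB.C1W

open Wd Cfsg.Agent.H861.Gen.CoEv

/-- the generators of `3 ^ 6` -/
def F (j : ℕ) : List ℕ := [j + 1]

/-- the action of the letter `8` -/
def w8 : List (List ℕ) := [[0, 0, 1, 3, 3, 4, 4], [2], [3], [1], [0, 1, 3, 5], [1, 3, 3, 5]]
/-- the action of the letter `11` -/
def w11 : List (List ℕ) := [[0], [0, 2, 3, 3, 4, 5], [1, 1, 4, 4, 5, 5], [1, 1], [5], [1, 1, 3, 4, 4]]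
/-- the action of the letter `31` -/
def w31 : List (List ℕ) := [[0], [1], [3], [2], [2, 2, 3, 4], [1, 1, 2, 2, 3, 3, 5, 5]]
/-- the generators of the orbits -/
def Ws : List (List (List ℕ) × ℕ) := [(w8, 2), (w11, 10)]
/-- the orbit of length 24 -/
def v1 : ℕ := 172365448255912490178722565781744272486995659026020097431807869092141942143915669777931859576915917241784708256858968822364427740162947473420233692064721337567802604327812293045793224282420921771435543106095274786816
/-- the orbit of length 264 -/
def v2 : ℕ := 693811966581408847560384828200915464828547441125387667396125065448068649858945278252021488465800252039637792663039003285964591119341111306765546413741797949328606470723416437005972730180501577731887014831408462826334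
/-- the orbit of length 440 -/
def v3 : ℕ := 2823147781293380175611369734810645203614038368751426116918573997928153619769195638957843967647187280801616442997364098606014967847018886888846367308381139587143899682407664891842580306538240605224254036920897026628121760
/-- an element of square `-1` -/
def wJ : List ℕ := [4, 34, 10, 4, 34, 10, 4, 34, 10, 4, 34, 10, 4, 34, 10, 4, 34, 10, 4, 34, 10]

theorem kF : comB M F 6 = true := by decide +kernel
theorem k8 : rlB M F 6 [8] w8 = true := by decide +kernel
theorem k11 : rlB M F 6 [11] w11 = true := by decide +kernel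
theorem k31 : rlB M F 6 [31] w31 = true := by decide +kernel
theorem kO : chkO 3 6 Ws = true := by decide +kernel
theorem kV1 : chkV 3 6 Ws 40 v1 = true := by decide +kernel
theorem kV2 : chkV 3 6 Ws 1 v2 = true := by decide +kernel
theorem kV3 : chkV 3 6 Ws 5 v3 = true := by decide +kernel

/-- the counts -/
def cls (p : ℕ → Bool) : List ℕ := [cl v1 v2 v3 p (3 ^ 6) 0, cl v1 v2 v3 p (3 ^ 6) 1, cl v1 v2 v3 p (3 ^ 6) 2,
  cl v1 v2 v3 p (3 ^ 6) 3]

theorem kz : cls (fun u => !Nat.beq (ip 3 u [0] % 3) 0) = [0, 24, 132, 330] := by decide +kernel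
theorem kx : cls (fun u => !Nat.beq (ip 3 u [0, 1] % 3) 0) = [0, 12, 174, 300] := by decide +kernel
theorem kD : cls (fun u => Nat.blt u (tws 3 6 w31 u)) = [0, 8, 116, 200] := by decide +kernel
theorem kD' : allTo (fun u => Nat.beq (tws 3 6 w31 (tws 3 6 w31 u)) u) (3 ^ 6) = true := by decide +kernel
theorem kA : (powP M [31] 2 && powP M [10] 2 && eqP M [10, 1] [1, 1, 10] && powP M [14, 9, 59, 64] 1) = true := by
  decide +kernel
theorem kT : trR (M 31) = 64 ∧ trR (M 10) = 0 := by decide +kernel
theorem kJ : (relP M wJ.reverse 2 && !powP M wJ 2 && eqP M (wJ ++ [1]) ([1, 1] ++ wJ)) = true := by decide +kernel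
theorem kG : H861.Gen.CoOne.chk M [1, 2].reverse [14, 9, 1, 2, 59, 64].reverse [false, true, false, true, true]
    [false, true] 3 = true := by decide +kernel

end Cfsg.Agent.TwoF.SpB.C1W
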