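import Cfsg.Agent.TwoF.SpB.C2Wt
import Cfsg.Agent.TwoF.SpB.C1Big
import Cfsg.Agent.TwoF.SpB.C2Small
import Cfsg.Agent.TwoF.SpA.Gen
import Cfsg.Agent.H966.Gen.CoTwo
import Cfsg.Agent.CoFive.Dims
import Cfsg.Agent.Co2Type.FactsClass
import Cfsg.Agent.S0400

/-!
# TwoF SP-B: `Co2` in characteristic two (helper24)
-/

set_option autoImplicit false

namespace Cfsg.Agent.TwoF.SpB.C2W

open Module Gen Subgroup Wd Cfsg.Agent.SporadicStructure.Co0Matrix Cfsg.Agent.CoOneType.CoEval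
open Cfsg.Agent.Co2Type.Mono (tr8 tr8_conj toCo0 toCo0_injective exists_toCo0 tr tr_conj)
open Cfsg.Agent.Co2Type.FactsClass
open Cfsg.Agent.SigZeroCo2.Lin (rep)

theorem exists_psi : ∃ ψ : Spor.Co2 →* Co0, Function.Injective ψ ∧ (∀ g, tr8 (ψ g) = tr8 (toCo0 g)) ∧
    ∀ w, mapB M w U U = true → ∃ g, ψ g = W e w := by
  have h1 : sqNorm (vec U) = 32 := by rw [sqNorm_eq_dot, dotInt_vec _ _ (by decide), kU.2]
  obtain ⟨c, hc⟩ := S0400.result Spor.leechU ⟨vec U, vec_mem_of_leechB kU.1⟩ (by decide) h1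
  refine ⟨(MulAut.conj c).toMonoidHom.comp toCo0, (MulAut.conj c).injective.comp toCo0_injective,
    fun g => tr8_conj c _, fun w hw => ?_⟩
  have h2 : W e w • (⟨vec U, vec_mem_of_leechB kU.1⟩ : leechLattice) = ⟨vec U, vec_mem_of_leechB kU.1⟩ :=
    Subtype.ext (map_of_mapB hM hw rfl (H861.Gen.CoEv.smO_of_norm (h1.trans_lt (by decide +kernel))))
  obtain ⟨g, hg⟩ := exists_toCo0 (g := c⁻¹ * W e w * c) (by rw [mul_smul, mul_smul, hc, h2, ← hc, inv_smul_smul])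
  refine ⟨g, ?_⟩
  change c * toCo0 g * c⁻¹ = _
  rw [hg]
  group

/-- the two generators -/
noncomputable def e2 (i : ℕ) : Co0 := cond (Nat.beq i 0) (e 5) (W e [59, 80, 10, 25, 5, 75, 10, 30, 9])

theorem hM2 (i : ℕ) : Rep (e2 i) (M2 i) := by
  unfold e2 M2
  cases Nat.beq i 0
  · exact rep_of_repB hM kY
  · exact hM 5

theorem facts : W e [31, 59] ^ 2 = 1 ∧ W e [10] ^ 2 = 1 ∧ W e [5] ≠ 1 ∧
    W e [59, 80, 10, 25, 5, 75, 10, 30, 9] = W e [59, 80, 10, 25] * W e [5] * (W e [59, 80, 10, 25])⁻¹ := by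
  have h := kA
  rw [Bool.and_eq_true, Bool.and_eq_true, Bool.and_eq_true, Bool.not_eq_true', ← Bool.not_eq_true, pow_iff hM,
    pow_iff hM, pow_iff hM, pow_iff hM, pow_one, pow_one,
    show [59, 80, 10, 25, 75, 10, 30, 9] = [59, 80, 10, 25] ++ [75, 10, 30, 9] from rfl, W_append] at h
  refine ⟨h.1.1.1, h.1.1.2, h.2, ?_⟩
  rw [← eq_inv_of_mul_eq_one_right h.1.2, ← W_append, ← W_append]
  rfl

theorem gen (B : H940.Eng.Base) {ψ : Spor.Co2 →* Co0} (hψ : Function.Injective ψ) {x g : Spor.Co2}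
    (hx : ψ x = W e [5]) (hg : ψ g = W e [59, 80, 10, 25]) : Subgroup.closure {x, g * x * g⁻¹} = ⊤ := by
  have := C2.fin
  by_contra hne
  generalize hH : Subgroup.closure {x, g * x * g⁻¹} = H at hne
  have h1 : ∀ w : List ℕ, ∃ s : H, ψ s = W e2 w := fun w => by
    induction w with
    | nil => exact ⟨1, map_one _⟩
    | cons i w ih =>
      obtain ⟨s, hs⟩ := ih
      have h2 : ∃ t : H, ψ t = e2 i := by
        unfold e2
        cases Nat.beq i 0
        · exact ⟨⟨g * x * g⁻¹, hH ▸ Subgroup.subset_closure (Or.inr rfl)⟩, by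
            rw [map_mul, map_mul, map_inv, hx, hg, ← facts.2.2.2]; rfl⟩
        · exact ⟨⟨x, hH ▸ Subgroup.subset_closure (Or.inl rfl)⟩, hx.trans (W_one 5)⟩
      obtain ⟨t, ht⟩ := h2
      exact ⟨t * s, by rw [coe_mul, map_mul, ht, hs]; rfl⟩
  have ho : ∀ s : H, orderOf s = orderOf (ψ s) := fun s => by rw [orderOf_injective ψ hψ, orderOf_coe]
  obtain ⟨s, hs⟩ := h1 [0, 1]
  have h2 := H147.Gen.orders2 (H89.SepCo2.ctx B) ⟨23, 23, [(11, 1), (23, 1)]⟩ (List.mem_cons_of_mem _ List.mem_cons_self) _ 20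
    H966.Gen.CoTwo.ho23 H (by
      rw [← ord_of hM2 (by norm_num) k23, ← hs, ← ho]
      exact orderOf_dvd_natCard s) hne
  obtain ⟨a, ha⟩ := h1 [0, 1, 1, 0, 1, 1, 0, 1, 1]
  obtain ⟨b, hb⟩ := h1 [0, 1, 0, 0, 1, 0, 1, 1]
  have oa : orderOf (ψ a) = 5 := by rw [ha]; exact ord_of hM2 Nat.prime_five k5A
  have ob : orderOf (ψ b) = 5 := by rw [hb]; exact ord_of hM2 Nat.prime_five k5B
  have : Fact (Nat.Prime 5) := ⟨Nat.prime_five⟩
  have h3 := SpA.cod_eq_of_order (ρ := (rep.comp (ψ.comp H.subtype) : Representation ℚ H SigZeroCo2.Lin.Sp))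
    (s := 5)
    ((by decide : ∀ n ∈ H966.Gen.CoTwo.os23, ¬ 5 ^ 2 ∣ n) _ h2) (a := a) (b := b)
    (by rw [← oa, ← ho, pow_orderOf_eq_one]) (fun e => by rw [← ho, e, orderOf_one] at oa; cases oa)
    (by rw [← ob, ← ho, pow_orderOf_eq_one]) (fun e => by rw [← ho, e, orderOf_one] at ob; cases ob)
  have h4 := cod_add (ρ := (rep.comp (ψ.comp H.subtype) : Representation ℚ H SigZeroCo2.Lin.Sp)) (zpowers a)
  have h5 := cod_add (ρ := (rep.comp (ψ.comp H.subtype) : Representation ℚ H SigZeroCo2.Lin.Sp)) (zpowers b)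
  rw [fx_zpowers] at h4 h5
  have h6 : finrank ℚ (SigZeroCo2.Rank.fix (rep (ψ a))) = finrank ℚ (SigZeroCo2.Rank.fix (rep (ψ b))) :=
    Nat.add_left_cancel ((h3 ▸ h4).trans h5.symm)
  have h7 := CoFive.Dims.five_finrank oa
  have hR := kR
  rw [Bool.and_eq_true] at hR
  rw [h6, CoFive.Dims.five_finrank ob, ha, hb, tr8_eq (rep_of_repB hM2 hR.1), tr8_eq (rep_of_repB hM2 hR.2), kT.1,
    kT.2.1] at h7
  norm_num at h7

theorem tr_inv {d : Spor.Co2} (h : d ^ 2 = 1) (h1 : d ≠ 1) :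
    tr8 (toCo0 d) = 64 ∨ tr8 (toCo0 d) = 0 ∨ tr8 (toCo0 d) = 8 * (-8) := by
  rw [pow_two] at h
  rcases tr_cases (t := toCo0 d) (by rw [← map_mul, h, map_one])
    (fun e => h1 ((map_eq_one_iff _ toCo0_injective).1 e)) with e | e | e | e
  · exact Or.inl e
  · exact Or.inr (Or.inl e)
  · exact Or.inr (Or.inr e)
  have h2 : ∀ s, IsConj s d → tr s = -24 := fun s hs => by
    obtain ⟨g, rfl⟩ := isConj_iff.1 hs
    rw [← tr_conj g s]
    exact congrArg (· / 8) e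
  rcases classes h h1 with h3 | h3 | h3
  · exact absurd (tr_z.symm.trans (h2 _ h3)) (by decide)
  · exact absurd (tr_y.symm.trans (h2 _ h3)) (by decide)
  · exact absurd (tr_v.symm.trans (h2 _ h3)) (by decide)

theorem conj_of {s t : Spor.Co2} (hs : s ^ 2 = 1) (ht : t ^ 2 = 1) :
    (tr8 (toCo0 s) = 64 → tr8 (toCo0 t) = 64 → IsConj s t) ∧ (tr8 (toCo0 s) = 0 → tr8 (toCo0 t) = 0 → IsConj s t) := by
  rw [pow_two] at hs ht
  exact ⟨fun h1 h2 => (conj_y_of_tr hs (congrArg (· / 8) h1)).symm.trans (conj_y_of_tr ht (congrArg (· / 8) h2)),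
    fun h1 h2 => (conj_v_of_tr hs (congrArg (· / 8) h1)).symm.trans (conj_v_of_tr ht (congrArg (· / 8) h2))⟩

theorem card_le_four {A : Type} [Group A] [Finite A] (φ : A →* Co0) (h : ∀ a, a ≠ 1 → tr8 (φ a) = 8 * (-8)) :
    Nat.card A ≤ 4 := by
  have := Fintype.ofFinite A
  obtain ⟨f, hf⟩ := H831.FF.exists_sum φ
  rw [sum_one _ h, map_one, SigZeroCo2.Lin.tr8_one] at hf
  have h1 : (0 : ℤ) ≤ f * Nat.card A := by positivity
  omega

theorem core (B : H940.Eng.Base) : Core 2 Spor.Co2 := fun V _ _ _ ρ hf hi A hA => by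
  have := C2.fin
  by_cases h : Cub ρ A
  · exact ⟨A, hA, h⟩
  obtain ⟨r, h0, h1, h2⟩ := nc_data hA h
  have hr : r ≤ 10 := (Nat.pow_le_pow_iff_right (by norm_num)).1 (h1 ▸ C2.main.1 A hA.1)
  obtain ⟨ψ, hψ, ht, hw⟩ := exists_psi
  have hX := kX
  simp only [List.all_cons, Bool.and_eq_true] at hX
  obtain ⟨x0, x1, x2, x3, x4, x5, x6, x7, -⟩ := hX
  have hF : ∀ j, ∃ g, ψ g = W e (F j)
    | 0 => hw _ x0
    | 1 => hw _ x1
    | 2 => hw _ x2
    | _ + 3 => hw _ x3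
  choose f hf' using hF
  obtain ⟨t1, e1⟩ := hw _ x4
  obtain ⟨t2, e2⟩ := hw _ x5
  obtain ⟨t3, e3⟩ := hw _ x6
  obtain ⟨g, eg⟩ := hw _ x7
  obtain ⟨c1, c2⟩ := com_of_comB hM kF
  obtain ⟨μ, H⟩ := exists_mu ρ (f := f) (l := 3) (m := 4) Nat.prime_three (by decide)
    (fun i hi j hj => hψ (by rw [map_mul, map_mul, hf', hf', c1 i hi j hj]))
    fun i hi => hψ (by rw [map_pow, hf', c2 i hi, map_one])
  have R : ∀ {t w ws}, ψ t = W e w → rlB M F 4 w ws = true → Rl f 4 t ws := fun e1 e2 =>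
    rl_of_map ψ hψ (by rw [e1, funext hf']; exact rl_of_rlB hM e2)
  have hW : ∀ p ∈ Ws, ∃ h, Rl f 4 h p.1 :=
    List.forall_mem_cons.2 ⟨⟨_, R e1 k1⟩, List.forall_mem_singleton.2 ⟨_, R e2 k2⟩⟩
  have o1 := H.orb (by norm_num) hW kO kV1
  have o2 := H.orb (by norm_num) hW kO kV2
  have o3 : ∀ u, (0 : ℕ).testBit u = true → μ u = 0 := fun u hu => by simp at hu
  have hx : cod ρ (zpowers (f 0 * 1)) = _ := H.eq' o1 o2 o3 (w := [0]) (by decide) rfl kx
  have hD1 := H.lo' o1 o2 o3 (R e1 k1) kI1 rfl kD1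
  have hD3 := H.lo' o1 o2 o3 (R e3 k3) kI3 rfl kD3
  rw [mul_one] at hx
  have key : μ 3 ≤ 1 ∧ μ 1 = 0 := by
    by_cases p1 : ∃ d ∈ A, tr8 (toCo0 d) = 0
    · obtain ⟨d, hd, h3⟩ := p1
      have h4 := h2 d hd
      rw [← cod_isConj ((conj_of (hψ (by rw [map_pow, e3, facts.2.1, map_one])) (hA.1.2 d hd)).2
        (by rw [← ht, e3, W_one, tr8_eq (hM 10), kT.2.2]) h3)] at h4
      omega
    by_cases p2 : ∃ d ∈ A, tr8 (toCo0 d) = 64
    · obtain ⟨d, hd, h3⟩ := p2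
      have h4 := h2 d hd
      rw [← cod_isConj ((conj_of (hψ (by rw [map_pow, e1, facts.1, map_one])) (hA.1.2 d hd)).1
        (by rw [← ht, e1, tr8_eq (rep_of_repB hM kD.1), kD.2]) h3)] at h4
      have h5 := dvd_of_sq (toCo0.comp A.subtype) fun a ha => by
        rcases tr_inv (hA.1.2 a a.2) fun e => ha (Subtype.ext e) with e | e | e
        · exact (congrArg (· ^ 2) e).trans (by norm_num)
        · exact absurd ⟨a, a.2, e⟩ p1
        · exact (congrArg (· ^ 2) e).trans (by norm_num)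
      rw [h1] at h5
      have h6 := le_of_pow_dvd (n := 9) h5 (by decide)
      omega
    have h5 := card_le_four (toCo0.comp A.subtype) fun a ha =>
      ((tr_inv (hA.1.2 a a.2) fun e => ha (Subtype.ext e)).resolve_left fun e => p2 ⟨a, a.2, e⟩).resolve_left
        fun e => p1 ⟨a, a.2, e⟩
    have h6 := Nat.pow_le_pow_right (n := 2) (by norm_num) h0
    omega
  have h9 := finrank_le_of_gen hf hi (fun e => facts.2.2.1 (by rw [← show ψ (f 0) = W _ [5] from hf' 0, e, map_one]))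
    (gen B hψ (hf' 0) eg)
  exact C2.main.2 V ρ (h9.trans (by omega)) A hA

end Cfsg.Agent.TwoF.SpB.C2W
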