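import Cfsg.Agent.TwoF.SpB.Tl
import Cfsg.Agent.H831.FF.RowCo3
import Cfsg.Agent.SevenLow.MTwelve

/-!
# TwoF SP-B: `Co3` in characteristic two (helper24)
-/

set_option autoImplicit false

namespace Cfsg.Agent.TwoF.SpB.C3

open Module Gen Subgroup
open Cfsg.Agent.Co2Type.Mono (tr8 tr8_conj)
open Cfsg.Agent.H831.FF.RowCo3 (toCo0 toCo0_inj)

theorem ord_two {G : Type} [Group G] {a : G} (h : a ^ 2 = 1) (h1 : a ≠ 1) : orderOf a = 2 := orderOf_eq_prime h h1

/-- a group with an involution whose centraliser maps to a group of rank three -/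
theorem card_le_of_hom {G U : Type} [Group G] [Finite G] [Group U] (hU : PRankLE 2 3 U) {w : G}
    (f : centralizer ({w} : Set G) →* U) (hf : ∀ x, f x = 1 → x = 1 ∨ (x : G) = w) {A : Subgroup G}
    (hA : IsElementaryAbelian 2 A) (hw : w ∈ A) : Nat.card A ≤ 16 := by
  have hle : A ≤ centralizer ({w} : Set G) := fun a ha => mem_centralizer_singleton_iff.2 (elemAb_comm hA ha hw)
  let g : A →* U := f.comp (inclusion hle)
  have h1 : Nat.card g.range ≤ 2 ^ 3 := by
    have := elemAb_map (elemAb_of (p := 2) (E := (⊤ : Subgroup A))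
      (fun a _ b _ => Subtype.ext (elemAb_comm hA a.2 b.2)) fun a _ => Subtype.ext (hA.2 a a.2)) g
    rw [← MonoidHom.range_eq_map] at this
    exact hU _ this.1 this.2
  have h2 : Nat.card g.ker ≤ 2 := by
    have h3 : (g.ker : Set A) ⊆ {1, ⟨w, hw⟩} := fun x hx => by
      rcases hf _ hx with e | e
      · exact Or.inl (Subtype.ext (congrArg Subtype.val e :))
      · exact Or.inr (Subtype.ext e)
    exact (Set.ncard_le_ncard h3 (Set.toFinite _)).trans ((Set.ncard_insert_le _ _).trans (by rw [Set.ncard_singleton]))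
  rw [← g.ker.card_mul_index, index_ker]
  exact Nat.mul_le_mul h2 h1

theorem rank {A : Subgroup Spor.Co3} (hA : IsElementaryAbelian 2 A) {r : ℕ} (hr : Nat.card A = 2 ^ r) : r ≤ 5 := by
  obtain ⟨w, D⟩ := CTwoTab.Co3.exists_data
  have hf := CTwoTab.Co3.finite_G3
  have F : Spor.Co3 ≃* SporRec.Co3.Chain.G3 := SporRec.Co3.Model.equivCo3.symm
  have hf' : Finite Spor.Co3 := Finite.of_equiv _ F.symm.toEquiv
  by_cases h : ∃ a ∈ A, IsConj w (F a)
  · obtain ⟨a, ha, h⟩ := h
    obtain ⟨g, hg⟩ := isConj_iff.1 h.symm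
    obtain ⟨f, -, hk⟩ := D.hom
    have h1 := card_le_of_hom (SevenLow.MTwelve.low D.iso) f hk
      (elemAb_map (elemAb_map hA F.toMonoidHom) (MulAut.conj g).toMonoidHom) ⟨F a, ⟨a, ha, rfl⟩, hg⟩
    rw [card_map_of_injective (MulAut.conj g).injective, card_map_of_injective F.injective, hr] at h1
    exact ((Nat.pow_le_pow_iff_right (by norm_num)).1 (h1.trans_eq (by norm_num : 16 = 2 ^ 4))).trans (by norm_num)
  have h1 : ∀ a : A, a ≠ 1 → tr8 (toCo0.comp A.subtype a) = tr8 (toCo0 (F.symm SporRec.Co3.Ident.Z)) := fun a h1 => by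
    obtain ⟨g, h2 | h2⟩ := D.cls (F a) (ord_two (by rw [← map_pow, hA.2 a a.2, map_one])
      fun e => h1 (Subtype.ext ((map_eq_one_iff F F.injective).1 e)))
    · have h3 := congrArg (fun x => tr8 (toCo0 (F.symm x))) h2
      simp only [map_mul, map_inv, tr8_conj, MulEquiv.symm_apply_apply] at h3
      exact h3
    · exact absurd ⟨a, a.2, isConj_iff.2 ⟨g, h2.symm⟩⟩ h
  have h2 : orderOf (toCo0 (F.symm SporRec.Co3.Ident.Z)) = 2 := by
    rw [orderOf_injective _ toCo0_inj, MulEquiv.orderOf_eq, D.t2]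
  rcases tr_cases (t := toCo0 (F.symm SporRec.Co3.Ident.Z)) (by rw [← pow_two, ← h2, pow_orderOf_eq_one])
    (fun e => by rw [e, orderOf_one] at h2; cases h2) with e | e | e | e
  all_goals
    rw [e] at h1
    have h3 := dvd_of_tr _ h1
    rw [hr] at h3
    exact le_of_pow_dvd h3 (by decide)

theorem core : Core 2 Spor.Co3 := fun V _ _ _ ρ hf _ A hA => by
  have : Finite Spor.Co3 := @Finite.of_equiv _ _ CTwoTab.Co3.finite_G3 SporRec.Co3.Model.equivCo3.toEquiv
  refine ⟨A, hA, by_contra fun h => ?_⟩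
  obtain ⟨r, -, h1, h2⟩ := nc_data hA h
  obtain ⟨⟨d, hd⟩, h3⟩ := ne_bot_iff_exists_ne_one.1 hA.2.1
  have h4 := le_cod_of_dimGe (H831.FF.RowCo3.cls (ord_two (hA.1.2 d hd) fun e => h3 (Subtype.ext e))).1 hf
  have h5 := h2 d hd
  have h6 := rank hA.1 h1
  omega

end Cfsg.Agent.TwoF.SpB.C3
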