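import Cfsg.Agent.TwoF.SpB.Core
import Cfsg.Agent.TwoF.Gen.BCub
import Cfsg.Agent.TwoF.Gen.BWt
import Cfsg.Agent.H831.FF.Trace
import Cfsg.Agent.H950.FF.CoTr

/-!
# TwoF SP-B: non-cubic offenders in characteristic two, trace sums in `Co0` (helper24)
-/

set_option autoImplicit false

namespace Cfsg.Agent.TwoF.SpB

open Module Gen Subgroup
open Cfsg.Agent.Co2Type.Mono (tr8 tr8_conj)

section

variable {Y : Type} [Group Y] {V : Type} [AddCommGroup V] [Module (ZMod 2) V] [Finite V]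
  {ρ : Representation (ZMod 2) Y V}

/-- a non-cubic offender -/
theorem nc_data [Finite Y] {A : Subgroup Y} (hA : Off 2 ρ A) (h : ¬ Cub ρ A) :
    ∃ r, 4 ≤ r ∧ Nat.card A = 2 ^ r ∧ ∀ d ∈ A, cod ρ (zpowers d) + 3 ≤ 2 * r := by
  obtain ⟨r, -, h1, h2⟩ := hA.exists_card
  refine ⟨r, ?_, h1, fun d hd => (cod_add_three_le_of_not_cub hA.1 h hd).trans h2⟩
  have := seven_le_cod hA.1 h
  omega

theorem le_cod_of_dimGe {x : Y} {n : ℕ} (h : H282.FF.DimGe.{0} x n) (hf : Function.Injective ρ) :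
    n ≤ cod ρ (zpowers x) := by
  let _ : MulDistribMulAction Y (Multiplicative V) :=
    { smul := fun g m => Multiplicative.ofAdd (ρ g m.toAdd)
      one_smul := fun m => congrArg Multiplicative.ofAdd (rho_one ρ m.toAdd)
      mul_smul := fun a b m => congrArg Multiplicative.ofAdd (rho_mul ρ a b m.toAdd)
      smul_mul := fun a m n => congrArg Multiplicative.ofAdd (map_add (ρ a) m.toAdd n.toAdd)
      smul_one := fun a => congrArg Multiplicative.ofAdd (map_zero (ρ a)) }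
  have h1 := h (Multiplicative V) (fun m => by
    have : (2 : ZMod 2) • m.toAdd = 0 := by rw [show (2 : ZMod 2) = 0 from rfl, zero_smul]
    rw [two_smul] at this
    exact congrArg Multiplicative.ofAdd this) fun g hg => hf (by
      rw [map_one]
      exact LinearMap.ext fun v => congrArg Multiplicative.toAdd (hg (Multiplicative.ofAdd v)))
  have h2 := (ClassTwoFusion.Quad.cv (Multiplicative V) ({x} : Set Y)).card_mul_index
  have h3 : Nat.card (ClassTwoFusion.Quad.cv (Multiplicative V) ({x} : Set Y)) = Nat.card (fx ρ (zpowers x)) :=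
    Nat.card_congr ⟨fun m => ⟨m.1.toAdd, mem_fx_zpowers.2 (congrArg Multiplicative.toAdd (m.2 x rfl))⟩,
      fun v => ⟨Multiplicative.ofAdd v.1, fun a ha => by
        rw [Set.mem_singleton_iff.1 ha]
        exact congrArg Multiplicative.ofAdd (mem_fx_zpowers.1 v.2)⟩, fun _ => rfl, fun _ => rfl⟩
  have h4 : Nat.card (Multiplicative V) = Nat.card V := rfl
  rw [h3, h4, natCard_eq_pow_finrank (K := ZMod 2), natCard_eq_pow_finrank (K := ZMod 2) (V := V), Nat.card_zmod,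
    ← cod_add (ρ := ρ) (zpowers x), pow_add, mul_comm] at h2
  rw [Nat.eq_of_mul_eq_mul_right (Nat.two_pow_pos _) h2] at h1
  exact (Nat.pow_le_pow_iff_right (by norm_num)).1 h1

/-- two conjugate generators -/
theorem finrank_le_of_gen (hf : Function.Injective ρ) (hi : Irr ρ ⊤) {x g : Y} (hx : x ≠ 1)
    (h : Subgroup.closure {x, g * x * g⁻¹} = ⊤) : finrank (ZMod 2) V ≤ 2 * cod ρ (zpowers x) := by
  have h1 : fx ρ ⊤ = ⊥ := hi.fx_eq_bot hf (by rw [normalizer_eq_top]) fun e => hx (by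
    rw [← mem_bot, ← e]; exact mem_top x)
  rw [← cod_of_fx_eq_bot h1, ← h, ← Set.singleton_union, Subgroup.closure_union, ← zpowers_eq_closure,
    ← zpowers_eq_closure, two_mul]
  exact (cod_sup_le _ _).trans (by rw [cod_zpowers_conj])

omit [Finite V] in
theorem cod_isConj {s t : Y} (h : IsConj s t) : cod ρ (zpowers s) = cod ρ (zpowers t) := by
  obtain ⟨g, rfl⟩ := isConj_iff.1 h
  rw [cod_zpowers_conj]

end

section

variable {A : Type} [Group A] [Finite A] (φ : A →* Co0)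

omit [Finite A] in
theorem sum_two (g : A → ℤ) [Fintype A] {c : ℤ} {z : A} (hz : z ≠ 1) (h : ∀ a, a ≠ 1 → a ≠ z → g a = c) :
    ∑ a, g a = g 1 + g z + (Nat.card A - 2) * c := by
  classical
  rw [← Finset.add_sum_erase _ _ (Finset.mem_univ 1),
    ← Finset.add_sum_erase _ _ (Finset.mem_erase.2 ⟨hz, Finset.mem_univ z⟩),
    Finset.sum_congr rfl fun a ha => h a (Finset.mem_erase.1 (Finset.mem_erase.1 ha).2).1 (Finset.mem_erase.1 ha).1,
    Finset.sum_const, nsmul_eq_mul, add_assoc]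
  have h1 := Finset.card_erase_add_one (Finset.mem_univ (1 : A))
  have h2 := Finset.card_erase_add_one (Finset.mem_erase.2 ⟨hz, Finset.mem_univ z⟩)
  rw [Nat.card_eq_fintype_card, ← Finset.card_univ, ← h1, ← h2]
  push_cast
  ring

omit [Finite A] in
theorem sum_one (g : A → ℤ) [Fintype A] {c : ℤ} (h : ∀ a, a ≠ 1 → g a = c) :
    ∑ a, g a = g 1 + (Nat.card A - 1) * c := by
  classical
  rw [← Finset.add_sum_erase _ _ (Finset.mem_univ 1),
    Finset.sum_congr rfl fun a ha => h a (Finset.mem_erase.1 ha).1, Finset.sum_const, nsmul_eq_mul]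
  have h1 := Finset.card_erase_add_one (Finset.mem_univ (1 : A))
  rw [Nat.card_eq_fintype_card, ← Finset.card_univ, ← h1]
  push_cast
  ring

theorem le_of_pow_dvd {r n : ℕ} {c : ℤ} (h : ((2 ^ r : ℕ) : ℤ) ∣ c) (hc : ¬ 2 ^ (n + 1) ∣ c) : r ≤ n := by
  by_contra h1
  push_cast at h
  exact hc ((pow_dvd_pow 2 (by omega)).trans h)

/-- constant trace -/
theorem dvd_of_tr {τ : ℤ} (h : ∀ a, a ≠ 1 → tr8 (φ a) = 8 * τ) : (Nat.card A : ℤ) ∣ 24 - τ := by
  have := Fintype.ofFinite A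
  obtain ⟨f, hf⟩ := H831.FF.exists_sum φ
  rw [sum_one _ h, map_one, SigZeroCo2.Lin.tr8_one] at hf
  exact ⟨f - τ, by linarith⟩

/-- trace `± 8` -/
theorem dvd_of_sq (h : ∀ a, a ≠ 1 → tr8 (φ a) ^ 2 = 4096) : (Nat.card A : ℤ) ∣ 512 := by
  have := Fintype.ofFinite A
  obtain ⟨f, hf⟩ := H831.FF.exists_sum_sq φ
  rw [sum_one _ h, map_one, SigZeroCo2.Lin.tr8_one] at hf
  exact ⟨f - 64, by linarith⟩

theorem dvd_of_sq' {z : A} (hz : z ≠ 1) (h1 : tr8 (φ z) = -192) (h : ∀ a, a ≠ 1 → a ≠ z → tr8 (φ a) ^ 2 = 4096) :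
    (Nat.card A : ℤ) ∣ 1024 := by
  have := Fintype.ofFinite A
  obtain ⟨f, hf⟩ := H831.FF.exists_sum_sq φ
  rw [sum_two _ hz h, map_one, SigZeroCo2.Lin.tr8_one, h1] at hf
  exact ⟨f - 64, by linarith⟩

theorem tr_cases {t : Co0} (ht : t * t = 1) (h1 : t ≠ 1) :
    tr8 t = 8 * 8 ∨ tr8 t = 8 * 0 ∨ tr8 t = 8 * (-8) ∨ tr8 t = 8 * (-24) := by
  obtain ⟨g, c, hg⟩ := CoOneType.InvMain.conj_sign_of_sq_one t ht
  have h2 : tr8 t = 8 * (24 - 2 * (CoOneType.SignFacts.wt c : ℤ)) := by rw [← H950.FF.CoTr.tr8_sign, ← hg, tr8_conj]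
  rcases CoOneType.SignFacts.wt_cases c with h | h | h | h | h
  · rw [CoOneType.ClosingFacts.eq_zero_of_wt h, SporadicA.Co0Mono.signCo0_zero, mul_inv_eq_one, mul_eq_left] at hg
    exact absurd hg h1
  all_goals rw [h2, h]; norm_num

end

end Cfsg.Agent.TwoF.SpB
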