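import Cfsg.Agent.TwoF.SpB.Wt
import Cfsg.Agent.TwoF.SpB.Tl
import Cfsg.Agent.LThreeCo1.RelQ
import Cfsg.Agent.H388.CoMat.Base
import Cfsg.Agent.H861.Gen.CoOneCert

/-!
# TwoF SP-B: words in explicit elements of `Co0` (helper24)
-/

set_option autoImplicit false

namespace Cfsg.Agent.TwoF.SpB.Wd

open Cfsg.Agent.SporadicA Cfsg.Agent.SporadicStructure.Co0Matrix Cfsg.Agent.CoOneType.CoEval
open Cfsg.Agent.LThreeCo1 Cfsg.Agent.LThreeCo1.Ev Cfsg.Agent.H861.Gen.CoEv
open Cfsg.Agent.H388.CoMat (eL e8_vec)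
open Cfsg.Agent.Co2Type.Mono (tr8)

section

variable {e : ℕ → Co0} {M : ℕ → List (List ℤ)}

/-- the value of a word -/
def W (e : ℕ → Co0) (w : List ℕ) : Co0 := (w.map e).prod

theorem W_append (u v : List ℕ) : W e (u ++ v) = W e u * W e v := by
  rw [W, List.map_append, List.prod_append]; rfl

theorem W_one (i : ℕ) : W e [i] = e i := mul_one _

theorem G_rev (w : List ℕ) : G e w.reverse = W e w := by
  induction w with
  | nil => rfl
  | cons i w ih =>
    rw [List.reverse_cons, G_append, ih, show G e [i] = 1 * e i from rfl, one_mul]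
    rfl

theorem W_flat (F : ℕ → List ℕ) (w : List ℕ) : W e (w.flatMap F) = (w.map fun j => W e (F j)).prod := by
  induction w with
  | nil => rfl
  | cons i w ih => rw [List.flatMap_cons, W_append, ih, List.map_cons, List.prod_cons]

/-- the code of a list -/
def cdL (l : List ℤ) : ℕ := Nat.ofDigits BB ((List.range 24).map fun i => (l.getD i 0 + HH).toNat)

theorem E_vec (l : List ℤ) : E (vec l) = cdL l := by
  unfold E cdL dl
  exact congrArg _ (List.map_congr_left fun i hi => by rw [vec_apply, GolayBase.idx_pt (List.mem_range.1 hi)])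

/-- small entries -/
def smB (l : List ℤ) : Bool := l.all fun x => Nat.blt x.natAbs 9

theorem sm_of_smB {l : List ℤ} (h : smB l = true) : Sm (vec l) := fun p => by
  rw [vec_apply]
  have h1 : (l.getD (GolayBase.idx p) 0).natAbs < 9 := by
    rcases lt_or_ge (GolayBase.idx p) l.length with h2 | h2
    · exact Nat.blt_eq.mp (List.all_eq_true.1 h _ (getD_mem_of_lt l 0 h2))
    · rw [List.getD_eq_default _ _ h2]; decide
  rw [Int.abs_eq_natAbs]
  exact Int.ofNat_lt.2 (h1.trans (by decide +kernel))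

/-- the word maps the first vector to the second -/
def mapB (M : ℕ → List (List ℤ)) (w : List ℕ) (l l' : List ℤ) : Bool :=
  smB l' && Nat.beq (run M w.reverse (cdL l)) (cdL l')

theorem map_of_mapB (hM : ∀ i, Rep (e i) (M i)) {w : List ℕ} {l l' : List ℤ} (h : mapB M w l l' = true)
    {u : leechLattice} (hu : (u : GolayPt → ℤ) = vec l) (hs : SmO u) :
    (((W e w).1 u : leechLattice) : GolayPt → ℤ) = vec l' := by
  rw [mapB, Bool.and_eq_true] at h
  have h1 := Nat.eq_of_beq_eq_true h.2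
  rw [← E_vec, ← E_vec, ← hu, run_spec hM _ hs, G_rev] at h1
  exact E_inj (hs _) (sm_of_smB h.1) h1

/-- the matrix of a word -/
def repB (M : ℕ → List (List ℤ)) (w : List ℕ) (R : List (List ℤ)) : Bool :=
  Nat.beq R.length 24 && allTo (fun i => mapB M w (eL i) (R.map fun r => r.getD i 0)) 24

theorem rep_of_repB (hM : ∀ i, Rep (e i) (M i)) {w : List ℕ} {R : List (List ℤ)} (h : repB M w R = true) :
    Rep (W e w) R := by
  rw [repB, Bool.and_eq_true] at h
  have hl := Nat.eq_of_beq_eq_true h.1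
  refine H861.Gen.CoOne.rep_of_e8 hl fun i p => ?_
  rw [map_of_mapB hM ((allTo_iff _ _).1 h.2 _ (GolayBase.idx_lt i)) (u := Co0Basic.e8 i) (e8_vec i)
    (smO_of_norm (by rw [sqNorm_e8]; decide +kernel)), show row R p = vec (R.getD (GolayBase.idx p) []) from rfl,
    vec_apply, vec_apply,
    List.getD_eq_getElem _ _ (by rw [List.length_map, hl]; exact GolayBase.idx_lt p), List.getElem_map,
    List.getD_eq_getElem R _ (by rw [hl]; exact GolayBase.idx_lt p)]

/-- equality of words -/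
def eqP (M : ℕ → List (List ℤ)) (w w' : List ℕ) : Bool := Nat.beq (run M w.reverse Eb) (run M w'.reverse Eb)

theorem run_beta (hM : ∀ i, Rep (e i) (M i)) (w : List ℕ) :
    run M w.reverse Eb = E (((W e w).1 CoOneType.CoEval.beta : leechLattice) : GolayPt → ℤ) := by
  have h := run_spec hM w.reverse smO_beta
  rwa [beta_coe, E_beta, G_rev] at h

theorem eq_of_eqP (hM : ∀ i, Rep (e i) (M i)) {w w' : List ℕ} (h : eqP M w w' = true) : W e w = W e w' := by
  have h1 := Nat.eq_of_beq_eq_true h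
  rw [run_beta hM, run_beta hM] at h1
  exact eq_of_fix (Subtype.ext (E_inj (smO_beta _) (smO_beta _) h1))

/-- a power of the word is trivial -/
def powP (M : ℕ → List (List ℤ)) (w : List ℕ) (n : ℕ) : Bool := Nat.beq (H861.Gen.CoEv.itr M w.reverse n Eb) Eb

theorem pow_iff (hM : ∀ i, Rep (e i) (M i)) (w : List ℕ) (n : ℕ) : powP M w n = true ↔ W e w ^ n = 1 := by
  rw [powP, Nat.beq_eq, itr_beta hM, G_rev, ← E_beta]
  exact ⟨fun h => eq_one_of_fix (Subtype.ext (E_inj (smO_beta _) (smO_beta 1) h)), fun h => by rw [h]; rfl⟩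

/-- the word has prime order -/
theorem ord_of (hM : ∀ i, Rep (e i) (M i)) {w : List ℕ} {p : ℕ} (hp : p.Prime)
    (h : (powP M w p && !powP M w 1) = true) : orderOf (W e w) = p := by
  have : Fact p.Prime := ⟨hp⟩
  rw [Bool.and_eq_true, Bool.not_eq_true', ← Bool.not_eq_true, pow_iff hM, pow_iff hM, pow_one] at h
  exact orderOf_eq_prime h.1 h.2

/-- the relations of a normalising element -/
def rlB (M : ℕ → List (List ℤ)) (F : ℕ → List ℕ) (m : ℕ) (hw : List ℕ) (ws : List (List ℕ)) : Bool :=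
  allTo (fun j => (ws.getD j []).all (fun i => Nat.blt i m) && eqP M (F j ++ hw) (hw ++ (ws.getD j []).flatMap F)) m

theorem rl_of_rlB (hM : ∀ i, Rep (e i) (M i)) {F : ℕ → List ℕ} {m : ℕ} {hw : List ℕ} {ws : List (List ℕ)}
    (h : rlB M F m hw ws = true) : Rl (fun j => W e (F j)) m (W e hw) ws := fun j hj => by
  have h1 := (allTo_iff _ _).1 h j hj
  rw [Bool.and_eq_true] at h1
  refine ⟨fun i hi => Nat.blt_eq.mp (List.all_eq_true.1 h1.1 i hi), ?_⟩
  have h2 := eq_of_eqP hM h1.2
  rwa [W_append, W_append, W_flat] at h2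

/-- commuting elements of order three -/
def comB (M : ℕ → List (List ℤ)) (F : ℕ → List ℕ) (m : ℕ) : Bool :=
  allTo (fun i => powP M (F i) 3 && allTo (fun j => eqP M (F i ++ F j) (F j ++ F i)) i) m

theorem com_of_comB (hM : ∀ i, Rep (e i) (M i)) {F : ℕ → List ℕ} {m : ℕ} (h : comB M F m = true) :
    (∀ i < m, ∀ j < m, W e (F i) * W e (F j) = W e (F j) * W e (F i)) ∧ ∀ i < m, W e (F i) ^ 3 = 1 := by
  have h1 : ∀ i < m, W e (F i) ^ 3 = 1 ∧ ∀ j < i, W e (F i) * W e (F j) = W e (F j) * W e (F i) := fun i hi => by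
    have h2 := (allTo_iff _ _).1 h i hi
    rw [Bool.and_eq_true] at h2
    refine ⟨(pow_iff hM _ _).1 h2.1, fun j hj => ?_⟩
    have h3 := eq_of_eqP hM ((allTo_iff _ _).1 h2.2 j hj)
    rwa [W_append, W_append] at h3
  refine ⟨fun i hi j hj => ?_, fun i hi => (h1 i hi).1⟩
  rcases lt_trichotomy i j with h2 | rfl | h2
  · exact ((h1 j hj).2 i h2).symm
  · rfl
  · exact (h1 i hi).2 j h2

/-- the trace -/
def trR (R : List (List ℤ)) : ℤ := ((List.range 24).map fun i => (R.getD i []).getD i 0).sum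

theorem tr8_eq {g : Co0} {R : List (List ℤ)} (h : Rep g R) : tr8 g = trR R := by
  rw [H950.FF.CoTr.tr8_rep h]
  exact Multiset.sum_coe _

end

/-- the matrices of the letters -/
def M (i : ℕ) : List (List ℤ) := cond (Nat.blt i 50) (RelQ.M i) (tr (RelQ.M (i - 50)))

/-- the letters -/
noncomputable def e (i : ℕ) : Co0 := cond (Nat.blt i 50) (RelQ.e i) (RelQ.e (i - 50))⁻¹

theorem hM (i : ℕ) : Rep (e i) (M i) := by
  unfold e M
  cases Nat.blt i 50
  · exact rep_inv (RelQ.okM _)
  · exact RelQ.rep i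

/-- transport of the relations -/
theorem rl_map {G H : Type} [Group G] [Group H] (π : G →* H) {f : ℕ → G} {m : ℕ} {h : G} {ws : List (List ℕ)}
    (H1 : Rl f m h ws) : Rl (fun j => π (f j)) m (π h) ws := fun j hj => ⟨(H1 j hj).1, by
  have := congrArg π (H1 j hj).2
  rwa [map_mul, map_mul, map_list_prod, List.map_map] at this⟩

theorem rl_of_map {G H : Type} [Group G] [Group H] (π : G →* H) (hπ : Function.Injective π) {f : ℕ → G} {m : ℕ}
    {h : G} {ws : List (List ℕ)} (H1 : Rl (fun j => π (f j)) m (π h) ws) : Rl f m h ws := fun j hj =>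
  ⟨(H1 j hj).1, hπ (by rw [map_mul, map_mul, map_list_prod, List.map_map]; exact (H1 j hj).2)⟩

end Cfsg.Agent.TwoF.SpB.Wd
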